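import Mathlib
import Cfsg.Agent.OddOrderLocal.QuadOdd

/-!
# S5719 (involution fixity): two opposite unipotent elements of `SL₂(q)`, `q` odd, generate a subgroup containing `-1`
(helper526)

* `neg_one_mem` : `-1 ∈ ⟨[1 a; 0 1], [1 0; b 1]⟩` for `a, b ≠ 0`.
* `opp` : the same under a homomorphism `φ : SL₂(F) →* G`.
* `opp_of` : relative form: no root elements of opposite root groups in a subgroup without the involution.
`hFT` is the odd order theorem (`fun D _ _ h => Cfsg.Agent.S0205.result h`).
-/

set_option autoImplicit false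
set_option linter.unusedSectionVars false

namespace Cfsg.Agent.H526.IF

open Matrix

universe u v

section Basic

variable {F : Type u} [Field F]

/-- upper transvection -/
def up (a : F) : SpecialLinearGroup (Fin 2) F := ⟨!![1, a; 0, 1], by simp [Matrix.det_fin_two]⟩

/-- lower transvection -/
def lo (b : F) : SpecialLinearGroup (Fin 2) F := ⟨!![1, 0; b, 1], by simp [Matrix.det_fin_two]⟩

/-- the only involution of `SL₂(F)` is `-1` -/
theorem eq_neg_one (h2 : (2 : F) ≠ 0) {g : SpecialLinearGroup (Fin 2) F} (hg : g * g = 1) (h1 : g ≠ 1) :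
    g = -1 := by
  have hdet := g.2
  rw [Matrix.det_fin_two] at hdet
  have hm : (g : Matrix (Fin 2) (Fin 2) F) * (g : Matrix (Fin 2) (Fin 2) F) = 1 := congrArg Subtype.val hg
  have e00 := congrFun (congrFun hm 0) 0
  have e01 := congrFun (congrFun hm 0) 1
  have e10 := congrFun (congrFun hm 1) 0
  have e11 := congrFun (congrFun hm 1) 1
  simp only [Matrix.mul_apply, Fin.sum_univ_two, Matrix.one_apply_eq, ne_eq, zero_ne_one, not_false_eq_true,
    Matrix.one_apply_ne, one_ne_zero] at e00 e01 e10 e11
  set a := (g : Matrix (Fin 2) (Fin 2) F) 0 0 with ha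
  set b := (g : Matrix (Fin 2) (Fin 2) F) 0 1 with hb
  set c := (g : Matrix (Fin 2) (Fin 2) F) 1 0 with hc
  set d := (g : Matrix (Fin 2) (Fin 2) F) 1 1 with hd
  have hs : a + d ≠ 0 := by
    intro hs
    apply h2
    linear_combination (-1 : F) * e00 - hdet + a * hs
  have hb0 : b = 0 := by
    have : b * (a + d) = 0 := by linear_combination e01
    exact (mul_eq_zero.1 this).resolve_right hs
  have hc0 : c = 0 := by
    have : c * (a + d) = 0 := by linear_combination e10
    exact (mul_eq_zero.1 this).resolve_right hs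
  have haa : a * a = 1 := by rw [hb0, zero_mul, add_zero] at e00; exact e00
  have had : a * d = 1 := by rw [hb0, zero_mul, sub_zero] at hdet; exact hdet
  have hda : d = a := by
    have ha0 : a ≠ 0 := by
      intro h
      rw [h, zero_mul] at haa
      exact zero_ne_one haa
    exact mul_left_cancel₀ ha0 (had.trans haa.symm)
  rcases mul_self_eq_one_iff.1 haa with h | h
  · exfalso
    apply h1
    ext i j
    fin_cases i <;> fin_cases j
    · exact h
    · exact hb0
    · exact hc0
    · exact hda.trans h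
  · ext i j
    fin_cases i <;> fin_cases j
    · show a = (-1 : Matrix (Fin 2) (Fin 2) F) 0 0
      rw [h]; simp
    · show b = (-1 : Matrix (Fin 2) (Fin 2) F) 0 1
      rw [hb0]; simp
    · show c = (-1 : Matrix (Fin 2) (Fin 2) F) 1 0
      rw [hc0]; simp
    · show d = (-1 : Matrix (Fin 2) (Fin 2) F) 1 1
      rw [hda, h]; simp

/-- the natural representation -/
noncomputable def rep (F : Type u) [Field F] : SpecialLinearGroup (Fin 2) F →* Module.End F (Fin 2 → F) where
  toFun g := Matrix.toLin' (g : Matrix (Fin 2) (Fin 2) F)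
  map_one' := Matrix.toLin'_one
  map_mul' g h := Matrix.toLin'_mul (g : Matrix (Fin 2) (Fin 2) F) (h : Matrix (Fin 2) (Fin 2) F)

theorem rep_apply (g : SpecialLinearGroup (Fin 2) F) (w : Fin 2 → F) (i : Fin 2) :
    rep F g w i = (g : Matrix (Fin 2) (Fin 2) F) i 0 * w 0 + (g : Matrix (Fin 2) (Fin 2) F) i 1 * w 1 := by
  show (Matrix.toLin' (g : Matrix (Fin 2) (Fin 2) F)) w i = _
  rw [Matrix.toLin'_apply, Matrix.mulVec, dotProduct, Fin.sum_univ_two]

theorem rep_up0 (a : F) (w : Fin 2 → F) : rep F (up a) w 0 = w 0 + a * w 1 := by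
  rw [rep_apply]; simp [up]
theorem rep_up1 (a : F) (w : Fin 2 → F) : rep F (up a) w 1 = w 1 := by
  rw [rep_apply]; simp [up]
theorem rep_lo0 (a : F) (w : Fin 2 → F) : rep F (lo a) w 0 = w 0 := by
  rw [rep_apply]; simp [lo]
theorem rep_lo1 (a : F) (w : Fin 2 → F) : rep F (lo a) w 1 = a * w 0 + w 1 := by
  rw [rep_apply]; simp [lo]

end Basic

section Main

variable {F : Type u} [Field F] [Finite F]

theorem neg_one_mem (h2 : (2 : F) ≠ 0)
    (hFT : ∀ (D : Type u) [Group D] [Finite D], Odd (Nat.card D) → Group.IsSolvable D) {a b : F}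
    (ha : a ≠ 0) (hb : b ≠ 0) :
    (-1 : SpecialLinearGroup (Fin 2) F) ∈ Subgroup.closure {up a, lo b} := by
  by_contra hcon
  set D : Subgroup (SpecialLinearGroup (Fin 2) F) := Subgroup.closure {up a, lo b} with hD
  have : Finite (SpecialLinearGroup (Fin 2) F) := Subtype.finite
  have hodd : Odd (Nat.card D) := by
    by_contra hev
    rw [Nat.not_odd_iff_even, even_iff_two_dvd] at hev
    obtain ⟨⟨g, hgD⟩, hg⟩ := exists_prime_orderOf_dvd_card' 2 hev
    rw [← Subgroup.orderOf_coe] at hg
    have hsq : g * g = 1 := by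
      have := pow_orderOf_eq_one g
      rwa [show orderOf g = 2 from hg, pow_two] at this
    have hg1 : g ≠ 1 := by
      rintro rfl
      rw [show orderOf (1 : SpecialLinearGroup (Fin 2) F) = 1 from orderOf_one] at hg
      omega
    exact hcon (eq_neg_one h2 hsq hg1 ▸ hgD)
  have hsol : Group.IsSolvable D := hFT D hodd
  have hu : up a ∈ D := Subgroup.subset_closure (by simp)
  have hl : lo b ∈ D := Subgroup.subset_closure (by simp)
  obtain ⟨w, hw0, hw1, hw2⟩ := OddOrderLocal.QuadOdd.exists_fixed_vector (F := F) (V := Fin 2 → F) hodd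
    ((rep F).comp D.subtype) (x := ⟨up a, hu⟩) (y := ⟨lo b, hl⟩)
    (by
      rw [eq_top_iff]
      rintro ⟨g, hg⟩ -
      have h1 : D ≤ (Subgroup.closure {(⟨up a, hu⟩ : D), ⟨lo b, hl⟩}).map D.subtype := by
        refine (Subgroup.closure_le _).2 ?_
        rintro x (rfl | rfl)
        · exact ⟨⟨up a, hu⟩, Subgroup.subset_closure (by simp), rfl⟩
        · exact ⟨⟨lo b, hl⟩, Subgroup.subset_closure (by simp), rfl⟩
      obtain ⟨y, hy, hyg⟩ := h1 hg
      have : y = ⟨g, hg⟩ := Subtype.ext hyg
      exact this ▸ hy)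
    (by
      show (rep F (up a) - 1) ^ 2 = 0
      rw [pow_two]
      refine LinearMap.ext fun v => funext fun i => ?_
      show rep F (up a) (rep F (up a) v - v) i - (rep F (up a) v - v) i = 0
      fin_cases i
      · simp [rep_up0, rep_up1]
      · simp [rep_up1])
    (by
      show (rep F (lo b) - 1) ^ 2 = 0
      rw [pow_two]
      refine LinearMap.ext fun v => funext fun i => ?_
      show rep F (lo b) (rep F (lo b) v - v) i - (rep F (lo b) v - v) i = 0
      fin_cases i
      · simp [rep_lo0]
      · simp [rep_lo0, rep_lo1])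
  apply hw0
  have e1 : w 1 = 0 := by
    have h := congrFun hw1 0
    change rep F (up a) w 0 = w 0 at h
    rw [rep_up0] at h
    have h' : a * w 1 = 0 := by linear_combination h
    exact (mul_eq_zero.1 h').resolve_left ha
  have e0 : w 0 = 0 := by
    have h := congrFun hw2 1
    change rep F (lo b) w 1 = w 1 at h
    rw [rep_lo1] at h
    have h' : b * w 0 = 0 := by linear_combination h
    exact (mul_eq_zero.1 h').resolve_left hb
  ext i
  fin_cases i
  · exact e0
  · exact e1

/-- **LEMMA OPP** -/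
theorem opp {G : Type v} [Group G] (h2 : (2 : F) ≠ 0)
    (hFT : ∀ (D : Type u) [Group D] [Finite D], Odd (Nat.card D) → Group.IsSolvable D)
    (φ : SpecialLinearGroup (Fin 2) F →* G) {a b : F} (ha : a ≠ 0) (hb : b ≠ 0) :
    φ (-1) ∈ Subgroup.closure {φ (up a), φ (lo b)} := by
  have h := Subgroup.mem_map_of_mem φ (neg_one_mem h2 hFT ha hb)
  rwa [MonoidHom.map_closure, Set.image_pair] at h

/-- OPP, relative form -/
theorem opp_of {G : Type v} [Group G] (h2 : (2 : F) ≠ 0)
    (hFT : ∀ (D : Type u) [Group D] [Finite D], Odd (Nat.card D) → Group.IsSolvable D)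
    (φ : SpecialLinearGroup (Fin 2) F →* G) {Y : Subgroup G} (hY : φ (-1) ∉ Y) {a b : F}
    (hu : φ (up a) ∈ Y) (hl : φ (lo b) ∈ Y) : a = 0 ∨ b = 0 := by
  by_contra hcon
  push Not at hcon
  refine hY ((Subgroup.closure_le Y).2 ?_ (opp h2 hFT φ hcon.1 hcon.2))
  rintro x (rfl | rfl)
  · exact hu
  · exact hl

end Main

end Cfsg.Agent.H526.IF
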